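import Mathlib
import Cfsg.Agent.H384.RC.KRule
import Cfsg.Agent.H239.RC.BSim
import Cfsg.Agent.H815.RC.Star
import Cfsg.Agent.H815.RC.Two

/-!
# S3510 part B, box BO4: Kronecker products (helper815)
-/

set_option autoImplicit false
open Matrix
open scoped Kronecker

namespace Cfsg.Agent.H815.RC

open Cfsg.Agent.H106.RC Cfsg.Agent.H999.PslGraph Cfsg.Agent.H384.RC
open Cfsg.Agent.ClassicalGeometry.AutPSL.Auto

variable {F : Type*} [Field F]

abbrev I4 : Type := Fin 2 × Fin 2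

/-- `E₀₁` -/
def nn (F : Type*) [Field F] : Matrix (Fin 2) (Fin 2) F := !![0, 1; 0, 0]
/-- `E₀₀` -/
def e0 (F : Type*) [Field F] : Matrix (Fin 2) (Fin 2) F := !![1, 0; 0, 0]
/-- `E₁₁` -/
def e1 (F : Type*) [Field F] : Matrix (Fin 2) (Fin 2) F := !![0, 0; 0, 1]

theorem nn_nn : nn F * nn F = 0 := by
  rw [nn, Matrix.mul_fin_two]; ext i j; fin_cases i <;> fin_cases j <;> simp
theorem e0_e0 : e0 F * e0 F = e0 F := by
  rw [e0, Matrix.mul_fin_two]; ext i j; fin_cases i <;> fin_cases j <;> simp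
theorem e1_e1 : e1 F * e1 F = e1 F := by
  rw [e1, Matrix.mul_fin_two]; ext i j; fin_cases i <;> fin_cases j <;> simp
theorem e0_e1 : e0 F * e1 F = 0 := by
  rw [e0, e1, Matrix.mul_fin_two]; ext i j; fin_cases i <;> fin_cases j <;> simp
theorem e1_e0 : e1 F * e0 F = 0 := by
  rw [e0, e1, Matrix.mul_fin_two]; ext i j; fin_cases i <;> fin_cases j <;> simp
theorem e0_nn : e0 F * nn F = nn F := by
  rw [e0, nn, Matrix.mul_fin_two]; ext i j; fin_cases i <;> fin_cases j <;> simp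
theorem nn_e0 : nn F * e0 F = 0 := by
  rw [e0, nn, Matrix.mul_fin_two]; ext i j; fin_cases i <;> fin_cases j <;> simp
theorem e1_nn : e1 F * nn F = 0 := by
  rw [e1, nn, Matrix.mul_fin_two]; ext i j; fin_cases i <;> fin_cases j <;> simp
theorem nn_e1 : nn F * e1 F = nn F := by
  rw [e1, nn, Matrix.mul_fin_two]; ext i j; fin_cases i <;> fin_cases j <;> simp
theorem e0_add_e1 : e0 F + e1 F = 1 := by
  rw [e0, e1]; ext i j; fin_cases i <;> fin_cases j <;> simp

/-- block equivalence -/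
def eb : Fin 2 ⊕ Fin 2 ≃ Fin 2 × Fin 2 where
  toFun := Sum.elim (fun i => (0, i)) (fun i => (1, i))
  invFun p := if p.1 = 0 then Sum.inl p.2 else Sum.inr p.2
  left_inv := by rintro (i | i) <;> simp
  right_inv := by
    rintro ⟨i, j⟩
    fin_cases i <;> simp

theorem det_blk (A D X : Matrix (Fin 2) (Fin 2) F) :
    (e0 F ⊗ₖ A + e1 F ⊗ₖ D + nn F ⊗ₖ X).det = A.det * D.det := by
  rw [← Matrix.det_submatrix_equiv_self eb, ← Matrix.det_fromBlocks_zero₂₁ A X D]
  congr 1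
  ext i j
  rcases i with i | i <;> rcases j with j | j <;> simp [eb, e0, e1, nn]

theorem kr_neg (A X : Matrix (Fin 2) (Fin 2) F) : A ⊗ₖ (-X) = -(A ⊗ₖ X) := by
  ext ⟨i, j⟩ ⟨k, l⟩
  simp

/-- `1 + N ⊗ X` -/
def rad (X : Matrix (Fin 2) (Fin 2) F) : GL I4 F where
  val := 1 + nn F ⊗ₖ X
  inv := 1 + nn F ⊗ₖ (-X)
  val_inv := by
    rw [Matrix.mul_add, Matrix.add_mul, Matrix.add_mul, ← Matrix.mul_kronecker_mul, nn_nn, kr_neg]
    simp only [Matrix.one_mul, Matrix.mul_one, Matrix.zero_kronecker]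
    abel
  inv_val := by
    rw [Matrix.mul_add, Matrix.add_mul, Matrix.add_mul, ← Matrix.mul_kronecker_mul, nn_nn, kr_neg]
    simp only [Matrix.one_mul, Matrix.mul_one, Matrix.zero_kronecker]
    abel

theorem coe_rad (X : Matrix (Fin 2) (Fin 2) F) : (rad X : Matrix I4 I4 F) = 1 + nn F ⊗ₖ X := rfl

theorem rad_add (X Y : Matrix (Fin 2) (Fin 2) F) : rad (X + Y) = rad X * rad Y := by
  apply Units.ext
  rw [Units.val_mul, coe_rad, coe_rad, coe_rad, Matrix.mul_add, Matrix.add_mul, Matrix.add_mul,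
    ← Matrix.mul_kronecker_mul, nn_nn, Matrix.kronecker_add]
  simp only [Matrix.one_mul, Matrix.mul_one, Matrix.zero_kronecker]
  abel

theorem rad_zero : rad (0 : Matrix (Fin 2) (Fin 2) F) = 1 := by
  apply Units.ext
  rw [coe_rad, Matrix.kronecker_zero, add_zero, Units.val_one]

theorem det_rad (X : Matrix (Fin 2) (Fin 2) F) : (rad X : Matrix I4 I4 F).det = 1 := by
  have := det_blk (1 : Matrix (Fin 2) (Fin 2) F) 1 X
  rw [← Matrix.add_kronecker, e0_add_e1, Matrix.one_kronecker_one] at this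
  rw [coe_rad, this, det_one, one_mul]

/-- `a ↦ a ⊗ 1` -/
def kl : SpecialLinearGroup (Fin 2) F →* GL I4 F where
  toFun a :=
    { val := a.1 ⊗ₖ 1
      inv := adjugate a.1 ⊗ₖ 1
      val_inv := by
        rw [← Matrix.mul_kronecker_mul, Matrix.mul_adjugate, a.2, one_smul, Matrix.mul_one,
          Matrix.one_kronecker_one]
      inv_val := by
        rw [← Matrix.mul_kronecker_mul, Matrix.adjugate_mul, a.2, one_smul, Matrix.mul_one,
          Matrix.one_kronecker_one] }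
  map_one' := by
    apply Units.ext
    exact Matrix.one_kronecker_one
  map_mul' a b := by
    apply Units.ext
    show (a.1 * b.1) ⊗ₖ (1 : Matrix (Fin 2) (Fin 2) F) = (a.1 ⊗ₖ 1) * (b.1 ⊗ₖ 1)
    rw [← Matrix.mul_kronecker_mul, Matrix.mul_one]

/-- `b ↦ 1 ⊗ b` -/
def kr : SpecialLinearGroup (Fin 2) F →* GL I4 F where
  toFun a :=
    { val := 1 ⊗ₖ a.1
      inv := 1 ⊗ₖ adjugate a.1
      val_inv := by
        rw [← Matrix.mul_kronecker_mul, Matrix.mul_adjugate, a.2, one_smul, Matrix.mul_one,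
          Matrix.one_kronecker_one]
      inv_val := by
        rw [← Matrix.mul_kronecker_mul, Matrix.adjugate_mul, a.2, one_smul, Matrix.mul_one,
          Matrix.one_kronecker_one] }
  map_one' := by
    apply Units.ext
    exact Matrix.one_kronecker_one
  map_mul' a b := by
    apply Units.ext
    show (1 : Matrix (Fin 2) (Fin 2) F) ⊗ₖ (a.1 * b.1) = (1 ⊗ₖ a.1) * (1 ⊗ₖ b.1)
    rw [← Matrix.mul_kronecker_mul, Matrix.mul_one]

theorem coe_kl (a : SpecialLinearGroup (Fin 2) F) : (kl a : Matrix I4 I4 F) = a.1 ⊗ₖ 1 := rfl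
theorem coe_kr (a : SpecialLinearGroup (Fin 2) F) : (kr a : Matrix I4 I4 F) = 1 ⊗ₖ a.1 := rfl
theorem coe_kl_inv (a : SpecialLinearGroup (Fin 2) F) :
    (((kl a)⁻¹ : GL I4 F) : Matrix I4 I4 F) = adjugate a.1 ⊗ₖ 1 := rfl
theorem coe_kr_inv (a : SpecialLinearGroup (Fin 2) F) :
    (((kr a)⁻¹ : GL I4 F) : Matrix I4 I4 F) = 1 ⊗ₖ adjugate a.1 := rfl

theorem det_kl (a : SpecialLinearGroup (Fin 2) F) : (kl a : Matrix I4 I4 F).det = 1 := by
  rw [coe_kl, Matrix.det_kronecker, a.2, det_one, one_pow, mul_one]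
theorem det_kr (a : SpecialLinearGroup (Fin 2) F) : (kr a : Matrix I4 I4 F).det = 1 := by
  rw [coe_kr, Matrix.det_kronecker, a.2, det_one, one_pow, mul_one]

theorem kl_kr (a b : SpecialLinearGroup (Fin 2) F) : kl a * kr b = kr b * kl a := by
  apply Units.ext
  rw [Units.val_mul, Units.val_mul, coe_kl, coe_kr, ← Matrix.mul_kronecker_mul,
    ← Matrix.mul_kronecker_mul, Matrix.mul_one, Matrix.one_mul, Matrix.one_mul, Matrix.mul_one]

theorem kr_rad (b : SpecialLinearGroup (Fin 2) F) (X : Matrix (Fin 2) (Fin 2) F) :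
    kr b * rad X * (kr b)⁻¹ = rad (cjm b X) := by
  apply Units.ext
  rw [Units.val_mul, Units.val_mul, coe_kr, coe_kr_inv, coe_rad, coe_rad, Matrix.mul_add,
    Matrix.add_mul, ← Matrix.mul_kronecker_mul, ← Matrix.mul_kronecker_mul, Matrix.mul_one,
    Matrix.one_mul, Matrix.mul_one, ← Matrix.mul_kronecker_mul, Matrix.mul_adjugate, b.2, one_smul,
    Matrix.one_mul, Matrix.one_kronecker_one]
  rfl

theorem kl_u (s : F) : kl (uSL s) = rad (s • 1) := by
  apply Units.ext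
  rw [coe_kl, coe_rad]
  ext ⟨i, j⟩ ⟨k, l⟩
  fin_cases i <;> fin_cases j <;> fin_cases k <;> fin_cases l <;> simp [uSL, nn, Matrix.one_apply]

/-- `E₀₀ ⊗ 1 + E₁₁ ⊗ h` -/
def bd (h : SpecialLinearGroup (Fin 2) F) : GL I4 F where
  val := e0 F ⊗ₖ 1 + e1 F ⊗ₖ h.1
  inv := e0 F ⊗ₖ 1 + e1 F ⊗ₖ adjugate h.1
  val_inv := by
    simp only [Matrix.mul_add, Matrix.add_mul, ← Matrix.mul_kronecker_mul, e0_e0, e1_e1, e0_e1,
      e1_e0, Matrix.zero_kronecker, Matrix.one_mul, Matrix.mul_one, Matrix.mul_adjugate, h.2,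
      one_smul, add_zero, zero_add]
    rw [← Matrix.add_kronecker, e0_add_e1, Matrix.one_kronecker_one]
  inv_val := by
    simp only [Matrix.mul_add, Matrix.add_mul, ← Matrix.mul_kronecker_mul, e0_e0, e1_e1, e0_e1,
      e1_e0, Matrix.zero_kronecker, Matrix.one_mul, Matrix.mul_one, Matrix.adjugate_mul, h.2,
      one_smul, add_zero, zero_add]
    rw [← Matrix.add_kronecker, e0_add_e1, Matrix.one_kronecker_one]

theorem coe_bd (h : SpecialLinearGroup (Fin 2) F) :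
    (bd h : Matrix I4 I4 F) = e0 F ⊗ₖ 1 + e1 F ⊗ₖ h.1 := rfl

theorem det_bd (h : SpecialLinearGroup (Fin 2) F) : (bd h : Matrix I4 I4 F).det = 1 := by
  have := det_blk (1 : Matrix (Fin 2) (Fin 2) F) h.1 0
  rw [Matrix.kronecker_zero, add_zero] at this
  rw [coe_bd, this, det_one, h.2, one_mul]

theorem bd_rad (h : SpecialLinearGroup (Fin 2) F) (X : Matrix (Fin 2) (Fin 2) F) :
    (bd h)⁻¹ * rad X * bd h = rad (X * h.1) := by
  rw [mul_assoc, inv_mul_eq_iff_eq_mul]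
  apply Units.ext
  rw [Units.val_mul, Units.val_mul, coe_bd, coe_rad, coe_rad]
  simp only [Matrix.mul_add, Matrix.add_mul, ← Matrix.mul_kronecker_mul, e0_nn, nn_e0, nn_e1,
    e1_nn, Matrix.zero_kronecker, Matrix.one_mul, Matrix.mul_one, add_zero]
  rw [add_assoc]

/-- the flip with determinant one -/
def fl (F : Type*) [Field F] : GL I4 F where
  val := Matrix.of fun p r => if p = (0, 0) ∧ r = (0, 0) then -1 else if p = r.swap then 1 else 0
  inv := Matrix.of fun p r => if p = (0, 0) ∧ r = (0, 0) then -1 else if p = r.swap then 1 else 0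
  val_inv := by
    ext ⟨i, j⟩ ⟨k, l⟩
    rw [Matrix.mul_apply, Fintype.sum_prod_type, Fin.sum_univ_two, Fin.sum_univ_two,
      Fin.sum_univ_two]
    fin_cases i <;> fin_cases j <;> fin_cases k <;> fin_cases l <;> simp [Matrix.one_apply]
  inv_val := by
    ext ⟨i, j⟩ ⟨k, l⟩
    rw [Matrix.mul_apply, Fintype.sum_prod_type, Fin.sum_univ_two, Fin.sum_univ_two,
      Fin.sum_univ_two]
    fin_cases i <;> fin_cases j <;> fin_cases k <;> fin_cases l <;> simp [Matrix.one_apply]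

/-- enumeration -/
def e4 : Fin 4 ≃ Fin 2 × Fin 2 where
  toFun := ![(0, 0), (0, 1), (1, 0), (1, 1)]
  invFun p := if p = (0, 0) then 0 else if p = (0, 1) then 1 else if p = (1, 0) then 2 else 3
  left_inv := by decide
  right_inv := by decide

theorem det_fl : (fl F : Matrix I4 I4 F).det = 1 := by
  rw [← Matrix.det_submatrix_equiv_self e4]
  have h : (fl F : Matrix I4 I4 F).submatrix e4 e4 =
      !![-1, 0, 0, 0; 0, 0, 1, 0; 0, 1, 0, 0; 0, 0, 0, 1] := by
    ext i j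
    fin_cases i <;> fin_cases j <;> simp [fl, e4]
  rw [h]
  simp [Matrix.det_succ_row_zero, Fin.sum_univ_succ]

theorem fl_rad (X : Matrix (Fin 2) (Fin 2) F) :
    (fl F : Matrix I4 I4 F) * (rad X : Matrix I4 I4 F) * (fl F : Matrix I4 I4 F) =
    1 + (!![-1, 0; 0, 1] * X) ⊗ₖ nn F := by
  rw [coe_rad, Matrix.mul_add, Matrix.add_mul, Matrix.mul_one]
  have h1 : (fl F : Matrix I4 I4 F) * (fl F : Matrix I4 I4 F) = 1 := (fl F).val_inv
  rw [h1]
  congr 1
  obtain ⟨a, b, c, d, rfl⟩ := exists_of_two X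
  rw [Matrix.mul_fin_two]
  ext ⟨i, j⟩ ⟨k, l⟩
  rw [Matrix.mul_apply, Fintype.sum_prod_type, Fin.sum_univ_two, Fin.sum_univ_two,
      Fin.sum_univ_two]
  simp only [Matrix.mul_apply, Fintype.sum_prod_type, Fin.sum_univ_two]
  fin_cases i <;> fin_cases j <;> fin_cases k <;> fin_cases l <;> simp [fl, nn]

theorem fl_inv : (fl F)⁻¹ = fl F := by
  apply Units.ext
  rfl

theorem fl_one : fl F * rad !![-1, 0; 0, 1] * (fl F)⁻¹ = kr (uSL 1) := by
  apply Units.ext
  rw [fl_inv, Units.val_mul, Units.val_mul, fl_rad, Matrix.mul_fin_two, coe_kr]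
  ext ⟨i, j⟩ ⟨k, l⟩
  fin_cases i <;> fin_cases j <;> fin_cases k <;> fin_cases l <;> simp [uSL, nn]

theorem fl_nn : fl F * rad (-nn F) * (fl F)⁻¹ = rad (nn F) := by
  apply Units.ext
  rw [fl_inv, Units.val_mul, Units.val_mul, fl_rad, coe_rad]
  congr 2
  rw [nn]
  ext i j
  fin_cases i <;> fin_cases j <;> simp [Matrix.mul_apply, Fin.sum_univ_two]

end Cfsg.Agent.H815.RC
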